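import Cfsg.Agent.Lib.Suzuki.U3Fin

/-!
# Coordinates on `PSU(3, q)`, `q` even
-/

set_option autoImplicit false

namespace Cfsg.Lib.U3F
open Subgroup Cfsg.Lib Cfsg.Lib.FT Cfsg.Lib.Suz Matrix
open scoped MatrixGroups

variable {F : Type*} [Field F] {τ : F ≃+* F} [hτ : Fact (Function.Involutive τ)] {q : ℕ}

theorem uJ_mul (x y : U3S τ) : uJ (x * y) = uJ x * uJ y := by
  refine Subtype.ext ?_
  rw [Matrix.SpecialLinearGroup.coe_mul]
  ext i j
  fin_cases i <;> fin_cases j <;> simp [uJ, Matrix.mul_apply, Fin.sum_univ_three] <;> ring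

omit hτ in
theorem dJ_mul (c c' : Fˣ) : dJ τ _ (c * c').ne_zero = dJ τ _ c.ne_zero * dJ τ _ c'.ne_zero := by
  refine Subtype.ext ?_
  rw [Matrix.SpecialLinearGroup.coe_mul]
  ext i j
  fin_cases i <;> fin_cases j <;> simp [dJ, Matrix.mul_apply, Fin.sum_univ_three] <;> ring

theorem isUJ_dJ (c : F) (hc : c ≠ 0) : IsUJ τ (dJ τ c hc).1 := by
  have : τ c ≠ 0 := by simpa using hc
  ext i j
  fin_cases i <;> fin_cases j <;> simp [dJ, Matrix.mul_apply, Fin.sum_univ_three] <;> field_simp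

/-- the action of the torus on the coordinates -/
def scl (l : F) (x : U3S τ) : U3S τ := ⟨l * x.a, l * τ l * x.b, by
  simp only [map_mul, U3S.ττ]; linear_combination l * τ l * x.h⟩

theorem dJ_uJ (c : F) (hc : c ≠ 0) (x : U3S τ) :
    dJ τ c hc * uJ x = uJ (scl (τ c / c ^ 2) x) * dJ τ c hc := by
  have : τ c ≠ 0 := by simpa using hc
  refine Subtype.ext ?_
  rw [Matrix.SpecialLinearGroup.coe_mul, Matrix.SpecialLinearGroup.coe_mul]
  ext i j
  fin_cases i <;> fin_cases j <;> simp [dJ, uJ, scl, Matrix.mul_apply, Fin.sum_univ_three] <;> field_simp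

omit hτ in
theorem tJ_tJ (h2 : (2 : F) = 0) : tJ h2 * tJ h2 = 1 := by
  refine Subtype.ext ?_
  rw [Matrix.SpecialLinearGroup.coe_mul]
  ext i j
  fin_cases i <;> fin_cases j <;> simp [tJ, Matrix.mul_apply, Fin.sum_univ_three]

theorem tJ_dJ (h2 : (2 : F) = 0) (c : F) (hc : c ≠ 0) :
    tJ h2 * dJ τ c hc * tJ h2 = dJ τ (τ c)⁻¹ (by simpa using hc) := by
  have : τ c ≠ 0 := by simpa using hc
  refine Subtype.ext ?_
  rw [Matrix.SpecialLinearGroup.coe_mul, Matrix.SpecialLinearGroup.coe_mul]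
  ext i j
  fin_cases i <;> fin_cases j <;> simp [dJ, tJ, Matrix.mul_apply, Fin.sum_univ_three]
  field_simp

/-- a group with the coordinates of `PSU(3, q)` -/
structure Mod {X : Type*} [Group X] (u : U3S τ →* X) (k t : X) (l : F) (H : Subgroup X) : Prop where
  ro : RO H u.range t
  inj : Function.Injective u
  conj : ∀ x, k * u x * k⁻¹ = u (scl l x)
  dec : ∀ h ∈ H, ∃ (x : U3S τ) (i : ℕ), h = u x * k ^ i
  kD : k ∈ dsub H t
  fa : ∀ i : ℕ, l ^ i = 1 → k ^ i = 1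
  cube : ∀ c : F, c ≠ 0 → ∃ i : ℕ, l ^ i = c ^ 3
  gen : ∀ c : F, τ c = c → c ≠ 0 → ∃ i : ℕ, (l * τ l) ^ i = c

theorem exists_mod [Finite F] (h2 : (2 : F) = 0) (hq : ∀ x, τ x = x ^ q) (hω : ∃ ω, τ ω ≠ ω)
    {X : Type*} [Group X] [Finite X] (e : X ≃* PSU 3 F q) :
    ∃ (u : U3S τ →* X) (k t : X) (l : F) (H : Subgroup X), Mod u k t l H := by
  classical
  obtain ⟨cj, hcj, hr⟩ := exists_cj h2 hq hω
  let φ : cj.range →* X := (e.symm.toMonoidHom.comp (QuotientGroup.mk' _)).comp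
    (MonoidHom.ofInjective hcj).symm.toMonoidHom
  have φs : Function.Surjective φ := (e.symm.surjective.comp (QuotientGroup.mk'_surjective _)).comp
    (MonoidHom.ofInjective hcj).symm.surjective
  have φk : ∀ A, φ A = 1 ↔ ∀ B : cj.range, B.1.1 * A.1.1 = A.1.1 * B.1.1 := fun A => by
    obtain ⟨A, rfl⟩ := (MonoidHom.ofInjective hcj).surjective A
    simp only [φ, MonoidHom.comp_apply, MulEquiv.coe_toMonoidHom, MulEquiv.symm_apply_apply,
      MulEquiv.map_eq_one_iff, QuotientGroup.mk'_apply, QuotientGroup.eq_one_iff, mem_center_iff]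
    refine ⟨fun h B => ?_, fun h B => hcj (Subtype.ext ?_)⟩
    · obtain ⟨B, rfl⟩ := (MonoidHom.ofInjective hcj).surjective B
      simpa [MonoidHom.ofInjective_apply] using congrArg (fun s => (cj s).1) (h B)
    · simpa [MonoidHom.ofInjective_apply] using h (MonoidHom.ofInjective hcj B)
  clear_value φ
  let U : U3S τ →* cj.range := MonoidHom.mk' (fun x => ⟨uJ x, (hr _).2 (isUJ_uJ h2 x)⟩)
    fun x y => Subtype.ext (uJ_mul x y)
  let D : Fˣ →* cj.range := MonoidHom.mk' (fun c => ⟨dJ τ _ c.ne_zero, (hr _).2 (isUJ_dJ _ _)⟩)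
    fun x y => Subtype.ext (dJ_mul x y)
  let T : cj.range := ⟨tJ h2, (hr _).2 (isUJ_tJ h2)⟩
  let s : U3S τ := U3S.cen 1 (by simpa [← two_mul] using h2)
  have hc : ∀ (c : Fˣ) x, φ (D c) * φ (U x) * (φ (D c))⁻¹ = φ (U (scl (τ c / c ^ 2) x)) := fun c x => by
    rw [mul_inv_eq_iff_eq_mul, ← map_mul φ, ← map_mul φ]
    exact congrArg φ (Subtype.ext (dJ_uJ _ c.ne_zero x))
  have hN : (φ.comp D).range ≤ N[(φ.comp U).range] := by
    rintro _ ⟨c, rfl⟩
    exact h9_mem_normalizer_of_conj_mem (by rintro _ ⟨x, rfl⟩; exact ⟨_, (hc c x).symm⟩)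
  set H := (φ.comp U).range ⊔ (φ.comp D).range
  have mH : ∀ g ∈ H, ∃ x c, g = φ (U x) * φ (D c) := fun g hg => by
    obtain ⟨_, ⟨x, rfl⟩, _, ⟨c, rfl⟩, rfl⟩ := (mem_sup_of_le_normalizer hN).1 hg
    exact ⟨x, c, rfl⟩
  have key : ∀ A, φ A ∈ H ↔ A.1.1 2 0 = 0 := fun A => by
    refine ⟨fun h => ?_, fun h => ?_⟩
    · obtain ⟨x, c, e⟩ := mH _ h
      have h1 := congrFun (congrFun ((φk ((U x * D c)⁻¹ * A)).1 (by rw [map_mul, e]; simp) (U s)) 0) 0
      rw [← mul_inv_cancel_left (U x * D c) A]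
      generalize (U x * D c)⁻¹ * A = Z at h1
      simp [U, s, uJ, Matrix.mul_apply, Fin.sum_univ_three] at h1
      change ((uJ x).1 * (dJ τ _ c.ne_zero).1 * Z.1.1) 2 0 = 0
      simp [uJ, dJ, Matrix.mul_apply, Fin.sum_univ_three, h1]
    · obtain ⟨hc, x, e⟩ := eq_dJ_mul h2 ((hr _).1 A.2) h
      rw [show A = D (Units.mk0 _ hc) * U x from Subtype.ext e, map_mul]
      exact mul_mem (mem_sup_right ⟨_, rfl⟩) (mem_sup_left ⟨_, rfl⟩)
  have tt : φ T * φ T = 1 := by rw [← map_mul, show T * T = 1 from Subtype.ext (tJ_tJ h2), map_one]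
  have tD : ∀ c, φ T * φ (D c) * φ T ∈ H := fun c => by
    rw [← map_mul, ← map_mul, show T * D c * T = D (Units.mk0 (τ c)⁻¹ (by simp)) from
      Subtype.ext (tJ_dJ h2 _ c.ne_zero)]
    exact mem_sup_right ⟨_, rfl⟩
  have hinf : ∀ x, φ T * φ (U x) * φ T ∈ H → x = 1 := fun x h => by
    rw [← map_mul, ← map_mul, key] at h
    change ((tJ h2).1 * (uJ x).1 * (tJ h2).1) 2 0 = 0 at h
    simp [tJ, uJ, Matrix.mul_apply, Fin.sum_univ_three] at h
    have := x.h
    simp [h] at this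
    exact U3S.ext this h
  have inj : Function.Injective (φ.comp U) := (injective_iff_map_eq_one _).2 fun x hx =>
    hinf x (by rw [show φ (U x) = 1 from hx, mul_one, tt]; exact one_mem _)
  have hD : dsub H (φ T) ≤ (φ.comp D).range := fun g hg => by
    obtain ⟨x, c, rfl⟩ := mH g hg.1
    have h1 : φ T * (φ (U x) * φ (D c)) * φ T ∈ H := by
      simpa [inv_eq_of_mul_eq_one_right tt] using hg.2
    rw [hinf x (by
      convert mul_mem h1 (inv_mem (tD c)) using 1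
      simp [mul_assoc, inv_eq_of_mul_eq_one_right tt, ← mul_assoc (φ T) (φ T), tt])]
    exact ⟨c, by simp⟩
  have ro : RO H (φ.comp U).range (φ T) := by
    refine ⟨tt, fun h => by simpa [T, tJ] using (key T).1 h, le_sup_left,
      fun g hg x hx => conj_mem_of_le_normalizer (sup_le le_normalizer hN) hg hx,
      by rintro _ ⟨x, rfl⟩ h; rw [hinf x h, map_one], fun g hg => ?_, fun g hg => ?_, ?_, ?_⟩
    · obtain ⟨x, c, rfl⟩ := mH g hg
      exact ⟨_, ⟨x, rfl⟩, _, mem_sup_right ⟨c, rfl⟩, tD c, rfl⟩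
    · obtain ⟨A, rfl⟩ := φs g
      obtain ⟨x, hx⟩ := exists_vJ h2 ((hr _).1 A.2) (mt (key A).2 hg)
      have h1 : (A * (U x⁻¹ * T)).1.1 2 = A.1.1 2 0 • ![0, 0, 1] := by
        show A.1.1 2 ᵥ* ((uJ x⁻¹).1 * (tJ h2).1) = _
        rw [hx, smul_vecMul, ← vecMul_vecMul, vJ_uJ, mul_inv_cancel, vJ, vec_tJ]
        simp [vJ]
      refine ⟨_, (key (A * (U x⁻¹ * T))).2 (by rw [h1]; simp), _, ⟨x, rfl⟩, ?_⟩
      simp [mul_assoc, ← mul_assoc (φ T) (φ T), tt]
    · rw [← Nat.card_congr (MonoidHom.ofInjective inj).toEquiv, even_iff_two_dvd]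
      have : orderOf s = 2 := orderOf_eq_prime (U3S.ext (by simp [sq, s]) (by simpa [sq, s, ← two_mul] using h2))
        fun e => by simpa [s] using congrArg U3S.b e
      exact this ▸ orderOf_dvd_natCard s
    · refine Odd.of_dvd_nat ?_ ((card_dvd_of_le hD).trans (card_range_dvd _))
      have := Fintype.ofFinite F
      haveI : CharP F 2 := (CharP.charP_iff_prime_eq_zero Nat.prime_two).2 (by exact_mod_cast h2)
      rw [Nat.card_units, Nat.card_eq_fintype_card]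
      exact Nat.Even.sub_odd Fintype.card_pos
        (Nat.even_iff.2 (FiniteField.even_card_iff_char_two.1 (ringChar.eq F 2))) odd_one
  obtain ⟨c, hg⟩ := IsCyclic.exists_monoid_generator (α := Fˣ)
  have hp : ∀ a : F, a ≠ 0 → ∃ i : ℕ, (c : F) ^ i = a := fun a ha => by
    obtain ⟨i, hi⟩ := hg (Units.mk0 a ha)
    exact ⟨i, by simpa using congrArg Units.val hi⟩
  refine ⟨φ.comp U, φ (D c), φ T, τ c / c ^ 2, H, ro, inj, hc c, fun g hg => ?_,
    ro.mem_D.2 ⟨mem_sup_right ⟨c, rfl⟩, tD c⟩, fun i hi => ?_, fun a ha => ?_, fun a ha ha0 => ?_⟩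
  · obtain ⟨x, d, rfl⟩ := mH g hg
    obtain ⟨i, rfl⟩ := ‹∀ x : Fˣ, x ∈ Submonoid.powers c› d
    exact ⟨x, i, by simp⟩
  · rw [← map_pow, ← map_pow, φk]
    intro B
    rw [div_pow, ← map_pow, ← pow_mul, mul_comm 2, pow_mul, ← Units.val_pow_eq_pow_val] at hi
    generalize c ^ i = d at hi
    have h0 : (d : F) ≠ 0 := d.ne_zero
    have h1 : τ d = d ^ 2 := by field_simp at hi; exact hi
    have h3 : (d : F) ^ 3 = 1 := by
      have := congrArg τ h1
      rw [U3S.ττ, map_pow, h1] at this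
      exact mul_left_cancel₀ h0 (by linear_combination -this)
    have h4 : (D d).1.1 = (d : F) • (1 : Matrix (Fin 3) (Fin 3) F) := by
      ext i j
      fin_cases i <;> fin_cases j <;> simp [D, dJ, h1] <;> field_simp
      exact h3.symm
    simp [h4]
  · have ha' : τ a ≠ 0 := by simpa using ha
    obtain ⟨i, hi⟩ := hp (a ^ 2 * τ a)⁻¹ (by positivity)
    refine ⟨i, ?_⟩
    rw [div_pow, ← map_pow, ← pow_mul, mul_comm 2, pow_mul, hi]
    simp only [map_inv₀, map_mul, map_pow, U3S.ττ]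
    field_simp
  · haveI : CharP F 2 := (CharP.charP_iff_prime_eq_zero Nat.prime_two).2 (by exact_mod_cast h2)
    obtain ⟨b, hb⟩ := FiniteField.isSquare_of_char_two (ringChar.eq F 2) a⁻¹
    have h1 : τ b * τ b = b * b := by rw [← map_mul, ← hb, map_inv₀, ha]
    have h3 : τ b = b := by
      have : (τ b - b) ^ 2 = 0 := by linear_combination h1 + (b * b - b * τ b) * h2
      exact sub_eq_zero.1 (pow_eq_zero_iff two_ne_zero |>.1 this)
    have hb0 : b ≠ 0 := by rintro rfl; simp [ha0] at hb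
    obtain ⟨i, hi⟩ := hp b hb0
    refine ⟨i, ?_⟩
    rw [mul_pow, ← map_pow, div_pow, ← map_pow, ← pow_mul, mul_comm 2, pow_mul, hi, h3, map_div₀, map_pow, h3,
      ← inv_inv a, hb]
    field_simp

end Cfsg.Lib.U3F
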